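import Cfsg.Agent.H824.Sp2.Red

/-!
# S3938, `Sp_{2m}(2)`: vectors as bit strings, products of transvections (helper824)
-/

set_option autoImplicit false

namespace Cfsg.Agent.H824.Sp2

open Cfsg Cfsg.Agent.ClassicalGeometry.SympBasic Cfsg.Agent.H107.SpTr

/-- a bit -/
def bit : Bool → ZMod 2
  | false => 0
  | true => 1

theorem bit_xor (a b : Bool) : bit (xor a b) = bit a + bit b := by revert a b; decide

theorem bit_and (a b : Bool) : bit (a && b) = bit a * bit b := by revert a b; decide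

/-- the vector with the code `n` -/
def dec (m n : ℕ) : V m := Sum.elim (fun i => bit (n.testBit i)) (fun i => bit (n.testBit (m + i)))

theorem dec_xor (m a b : ℕ) : dec m (a ^^^ b) = dec m a + dec m b := by
  funext i
  rcases i with i | i
  · change bit _ = bit _ + bit _
    rw [Nat.testBit_xor, bit_xor]
  · change bit _ = bit _ + bit _
    rw [Nat.testBit_xor, bit_xor]

/-- the form on codes -/
def hbr (m a z : ℕ) : ℕ → Bool
  | 0 => false
  | i + 1 => xor (hbr m a z i) (xor (a.testBit (m + i) && z.testBit i) (a.testBit i && z.testBit (m + i)))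

def hb (m a z : ℕ) : Bool := hbr m a z m

theorem form_dec (m a z : ℕ) : sympForm m (ZMod 2) (dec m a) (dec m z) = bit (hb m a z) := by
  rw [sympForm_eq_sum]
  have h1 : ∀ i : Fin m, dec m a (Sum.inr i) * dec m z (Sum.inl i) - dec m a (Sum.inl i) * dec m z (Sum.inr i) =
      (fun i : ℕ => bit (a.testBit (m + i)) * bit (z.testBit i) + bit (a.testBit i) * bit (z.testBit (m + i))) i := by
    intro i
    rw [CharTwo.sub_eq_add]
    rfl
  rw [Finset.sum_congr rfl fun i _ => h1 i,
    Fin.sum_univ_eq_sum_range (fun i : ℕ => bit (a.testBit (m + i)) * bit (z.testBit i) +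
      bit (a.testBit i) * bit (z.testBit (m + i))) m]
  have key : ∀ k : ℕ, ∑ i ∈ Finset.range k, (bit (a.testBit (m + i)) * bit (z.testBit i) +
      bit (a.testBit i) * bit (z.testBit (m + i))) = bit (hbr m a z k) := by
    intro k
    induction k with
    | zero => rfl
    | succ k ih => rw [Finset.sum_range_succ, ih, hbr, bit_xor, bit_xor, bit_and, bit_and]
  exact key m

/-- a transvection on codes -/
def tstep (m a z : ℕ) : ℕ := bif hb m z a then z ^^^ a else z

theorem act_tstep (m a z : ℕ) : act (tr (dec m a)) (dec m z) = dec m (tstep m a z) := by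
  rw [act_tr, form_dec, tstep]
  cases hb m z a
  · change _ + (0 : ZMod 2) • _ = _
    rw [zero_smul, add_zero]
    rfl
  · change _ + (1 : ZMod 2) • _ = _
    rw [one_smul, ← dec_xor]
    rfl

/-- product of transvections -/
def P (m : ℕ) (l : List ℕ) : G m := (l.map fun a => tr (dec m a)).prod

def actl (m : ℕ) (l : List ℕ) (z : ℕ) : ℕ := l.foldr (tstep m) z

theorem act_P (m : ℕ) (l : List ℕ) (z : ℕ) : act (P m l) (dec m z) = dec m (actl m l z) := by
  induction l with
  | nil => exact act_one _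
  | cons a l ih =>
    rw [P, List.map_cons, List.prod_cons, act_mul]
    change act _ (act (P m l) (dec m z)) = _
    rw [ih, act_tstep]
    rfl

theorem P_append (m : ℕ) (l l' : List ℕ) : P m (l ++ l') = P m l * P m l' := by
  rw [P, List.map_append, List.prod_append]
  rfl

theorem P_reverse (m : ℕ) (l : List ℕ) : P m l.reverse = (P m l)⁻¹ := by
  induction l with
  | nil => exact inv_one.symm
  | cons a l ih =>
    rw [List.reverse_cons, P_append, ih]
    change (P m l)⁻¹ * (tr (dec m a) * 1) = (tr (dec m a) * P m l)⁻¹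
    rw [mul_one, mul_inv_rev, tr_inv]

theorem P_pair (m a b : ℕ) : P m [a, b] = tr (dec m a) * tr (dec m b) := by
  change tr (dec m a) * (tr (dec m b) * 1) = _
  rw [mul_one]

def iter (m : ℕ) (l : List ℕ) (z : ℕ) : ℕ → ℕ
  | 0 => z
  | k + 1 => actl m l (iter m l z k)

theorem act_pow (m : ℕ) (l : List ℕ) (z k : ℕ) : act (P m l ^ k) (dec m z) = dec m (iter m l z k) := by
  induction k with
  | zero => rw [pow_zero, act_one]; rfl
  | succ k ih => rw [pow_succ', act_mul, ih, act_P]; rfl

theorem dec_inl (m : ℕ) (i : Fin m) : dec m (2 ^ (i : ℕ)) = Pi.single (Sum.inl i) 1 := by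
  funext j
  rcases j with j | j
  · change bit ((2 ^ (i : ℕ)).testBit j) = _
    rw [Nat.testBit_two_pow]
    by_cases h : i = j
    · subst h
      rw [Pi.single_eq_same, decide_eq_true rfl]
      rfl
    · rw [Pi.single_eq_of_ne (fun hh => h (Sum.inl.inj hh).symm), decide_eq_false (fun hh => h (Fin.ext hh))]
      rfl
  · change bit ((2 ^ (i : ℕ)).testBit (m + j)) = _
    rw [Nat.testBit_two_pow, Pi.single_eq_of_ne (by exact Sum.inr_ne_inl), decide_eq_false (by omega)]
    rfl

theorem dec_inr (m : ℕ) (i : Fin m) : dec m (2 ^ (m + (i : ℕ))) = Pi.single (Sum.inr i) 1 := by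
  funext j
  rcases j with j | j
  · change bit ((2 ^ (m + (i : ℕ))).testBit j) = _
    rw [Nat.testBit_two_pow, Pi.single_eq_of_ne (by exact Sum.inl_ne_inr), decide_eq_false (by omega)]
    rfl
  · change bit ((2 ^ (m + (i : ℕ))).testBit (m + j)) = _
    rw [Nat.testBit_two_pow]
    by_cases h : i = j
    · subst h
      rw [Pi.single_eq_same, decide_eq_true rfl]
      rfl
    · rw [Pi.single_eq_of_ne (fun hh => h (Sum.inr.inj hh).symm), decide_eq_false (fun hh => h (Fin.ext (by omega)))]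
      rfl

/-- the basis vectors have the codes `2 ^ j` -/
theorem single_eq (m : ℕ) (i : Fin m ⊕ Fin m) : ∃ j < 2 * m, (Pi.single i 1 : V m) = dec m (2 ^ j) := by
  rcases i with i | i
  · exact ⟨i, by omega, (dec_inl m i).symm⟩
  · exact ⟨m + i, by omega, (dec_inr m i).symm⟩

def chkPow (m : ℕ) (l : List ℕ) (e : ℕ) (l' : List ℕ) : Bool :=
  (List.range (2 * m)).all fun j => Nat.beq (iter m l (2 ^ j) e) (actl m l' (2 ^ j))

theorem pow_of_chk {m : ℕ} {l l' : List ℕ} {e : ℕ} (h : chkPow m l e l' = true) : P m l ^ e = P m l' := by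
  rw [chkPow, List.all_eq_true] at h
  have h1 : ∀ i, act (P m l ^ e) (Pi.single i 1) = act (P m l') (Pi.single i 1) := by
    intro i
    obtain ⟨j, hj, hi⟩ := single_eq m i
    rw [hi, act_pow, act_P, Nat.eq_of_beq_eq_true (h j (List.mem_range.2 hj))]
  apply Subtype.ext
  ext i j
  have h2 := congrFun (h1 j) i
  rw [act_def, act_def, Matrix.mulVec_single_one, Matrix.mulVec_single_one] at h2
  exact h2

def xsum (m : ℕ) (l : List ℕ) (a : ℕ) : List ℕ → ℕ
  | [] => 0
  | k :: L => iter m l a k ^^^ xsum m l a L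

theorem dec_zero (m : ℕ) : dec m 0 = 0 := by
  have h := dec_xor m 0 0
  rw [Nat.xor_self] at h
  exact left_eq_add.1 h

theorem xsum_mem (m : ℕ) (l : List ℕ) (a : ℕ) (L : List ℕ) :
    dec m (xsum m l a L) ∈ Submodule.span (ZMod 2) (Set.range fun k : ℕ => act (P m l ^ k) (dec m a)) := by
  induction L with
  | nil =>
    rw [xsum, dec_zero]
    exact Submodule.zero_mem _
  | cons k L ih =>
    rw [xsum, dec_xor, ← act_pow]
    exact Submodule.add_mem _ (Submodule.subset_span ⟨k, rfl⟩) ih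

def chkSpan (m : ℕ) (l : List ℕ) (a : ℕ) (L : List (List ℕ)) : Bool :=
  (List.range (2 * m)).all fun j => Nat.beq (xsum m l a (L.getD j [])) (2 ^ j)

theorem span_of_chk {m : ℕ} {l : List ℕ} {a : ℕ} {L : List (List ℕ)} (h : chkSpan m l a L = true) :
    Submodule.span (ZMod 2) (Set.range fun k : ℕ => act (P m l ^ k) (dec m a)) = ⊤ := by
  rw [chkSpan, List.all_eq_true] at h
  rw [eq_top_iff, ← (Pi.basisFun (ZMod 2) (Fin m ⊕ Fin m)).span_eq, Submodule.span_le]
  rintro _ ⟨i, rfl⟩
  rw [Pi.basisFun_apply]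
  obtain ⟨j, hj, hi⟩ := single_eq m i
  rw [hi, ← Nat.eq_of_beq_eq_true (h j (List.mem_range.2 hj))]
  exact xsum_mem m l a _

/-- the letters: `s, y, S` and the inverses -/
def lett (ls ly lS : List ℕ) : ℕ → List ℕ
  | 0 => ls
  | 1 => ly
  | 2 => lS
  | 3 => ls.reverse
  | 4 => ly.reverse
  | _ => lS.reverse

def flat (ls ly lS : List ℕ) (w : List ℕ) : List ℕ := w.flatMap (lett ls ly lS)

theorem mem_flat {m : ℕ} {K : Subgroup (G m)} {ls ly lS : List ℕ} (h1 : P m ls ∈ K) (h2 : P m ly ∈ K)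
    (h3 : P m lS ∈ K) (w : List ℕ) : P m (flat ls ly lS w) ∈ K := by
  have hl : ∀ i, P m (lett ls ly lS i) ∈ K := by
    intro i
    unfold lett
    split
    · exact h1
    · exact h2
    · exact h3
    · rw [P_reverse]
      exact K.inv_mem h1
    · rw [P_reverse]
      exact K.inv_mem h2
    · rw [P_reverse]
      exact K.inv_mem h3
  induction w with
  | nil => exact K.one_mem
  | cons i w ih =>
    rw [flat, List.flatMap_cons, P_append]
    exact K.mul_mem (hl i) ih

/-- one certificate -/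
structure Dat (m : ℕ) (ls ly lS : List ℕ) where
  W0 : List ℕ
  e : ℕ
  a : ℕ
  W1 : List ℕ
  L : List (List ℕ)
  W2 : List ℕ
  W3 : List ℕ
  W4 : List ℕ
  h0 : chkPow m (flat ls ly lS W0) e [a] = true
  h1 : hb m a (actl m (flat ls ly lS W1) a) = true
  hL : chkSpan m (flat ls ly lS W1) a L = true
  h2 : hb m a (actl m (flat ls ly lS W2) a) = false
  h3 : Nat.beq (actl m (flat ls ly lS W3) a) (a ^^^ actl m (flat ls ly lS W2) a) = true
  h4 : hb m a (actl m (flat ls ly lS W4) a) = true
  h5 : hb m (actl m (flat ls ly lS W2) a) (actl m (flat ls ly lS W4) a) = true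

theorem Dat.top {m : ℕ} {ls ly lS : List ℕ} (D : Dat m ls ly lS) {K : Subgroup (G m)} (h1 : P m ls ∈ K) (h2 : P m ly ∈ K)
    (h3 : P m lS ∈ K) : K = ⊤ := by
  have hm := mem_flat h1 h2 h3
  have ha : tr (dec m D.a) ∈ K := by
    have := K.pow_mem (hm D.W0) D.e
    rw [pow_of_chk D.h0] at this
    change tr (dec m D.a) * 1 ∈ K at this
    rwa [mul_one] at this
  have hne : sympForm m (ZMod 2) (dec m D.a) (act (P m (flat ls ly lS D.W1)) (dec m D.a)) ≠ 0 := by
    rw [act_P, form_dec, D.h1]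
    exact n10
  have hF : dec m D.a ∈ Full K := by
    refine ⟨fun h0 => hne ?_, fun c => ?_⟩
    · rw [h0, sympForm_zero_left]
    · rcases zor c with rfl | rfl
      · rw [transv_zero]
        exact K.one_mem
      · exact ha
  have hb2 := full_act (hm D.W2) hF
  have hb3 := full_act (hm D.W3) hF
  have hb4 := full_act (hm D.W4) hF
  rw [act_P] at hb2 hb3 hb4
  rw [Nat.eq_of_beq_eq_true D.h3, dec_xor] at hb3
  refine top_of_full_two zor (hm D.W1) hF hne (span_of_chk D.hL) (b := dec m (actl m (flat ls ly lS D.W2) D.a))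
    ⟨hb2, _, hb4, ?_, ?_⟩ hb3 ?_ ?_
  · rw [form_dec, D.h4]
    exact n10
  · rw [form_dec, D.h5]
    exact n10
  · intro h
    exact hb3.1 (by rw [← h, vadd])
  · rw [form_dec, D.h2]
    rfl

/-- all data -/
structure Full2 (m : ℕ) where
  v : ℕ
  w : ℕ
  p : ℕ
  r : ℕ
  ly : List ℕ
  k1 : ℕ
  k2 : ℕ
  hs : chkPow m ([v, w] ++ ly) k1 [v, w] = true
  hy : chkPow m ([v, w] ++ ly) k2 ly = true
  hvw : hb m v w = true
  hpr : hb m p r = true
  hvp : hb m v p = false
  hvr : hb m v r = false
  hwp : hb m w p = false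
  hwr : hb m w r = false
  D1 : Dat m [v, w] ly [v ^^^ p, w]
  D2 : Dat m [v, w] ly [v ^^^ p, r]

/-- the certificates -/
def Full2.cert {m : ℕ} (D : Full2 m) : Cert m where
  v := dec m D.v
  w := dec m D.w
  p := dec m D.p
  r := dec m D.r
  two := ⟨by rw [form_dec, D.hvw]; rfl, by rw [form_dec, D.hpr]; rfl, by rw [form_dec, D.hvp]; rfl,
    by rw [form_dec, D.hvr]; rfl, by rw [form_dec, D.hwp]; rfl, by rw [form_dec, D.hwr]; rfl⟩
  x := P m ([D.v, D.w] ++ D.ly)
  k := D.k1
  pow := by rw [pow_of_chk D.hs, P_pair]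
  c1 := by
    intro K hx hS
    refine D.D1.top ?_ ?_ ?_
    · rw [← pow_of_chk D.hs]
      exact K.pow_mem hx _
    · rw [← pow_of_chk D.hy]
      exact K.pow_mem hx _
    · rwa [P_pair, dec_xor]
  c2 := by
    intro K hx hS
    refine D.D2.top ?_ ?_ ?_
    · rw [← pow_of_chk D.hs]
      exact K.pow_mem hx _
    · rw [← pow_of_chk D.hy]
      exact K.pow_mem hx _
    · rwa [P_pair, dec_xor]

end Cfsg.Agent.H824.Sp2
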